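import Mathlib
import Cfsg.Agent.Base
import Cfsg.Agent.Lib.Transfer.NormalComplement
import Cfsg.Agent.Lib.Block.PPart
import Cfsg.Agent.Lib.FGS.PLength
import Cfsg.Agent.Lib.BG6.PLength
import Cfsg.Agent.Lib.PGroup.Basic

/-! Groups whose Sylow normalizer controls fusion of elements and whose centralizers of
`p`-elements are `p`-nilpotent: the group theoretic part. -/

set_option autoImplicit false
set_option linter.unusedSectionVars false
set_option linter.style.haveILetI false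

namespace H24.Gl

open Cfsg Subgroup
open scoped Pointwise

variable {G : Type*} [Group G] [Finite G] {p : ℕ} [hp : Fact p.Prime]

/-- The local hypotheses. -/
structure Hyp (P : Sylow p G) : Prop where
  fus : ∀ x ∈ (P : Subgroup G), ∀ y ∈ (P : Subgroup G), IsConj x y →
    ∃ n ∈ normalizer ((P : Subgroup G) : Set G), n * x * n⁻¹ = y
  pn : ∀ x ∈ (P : Subgroup G), x ≠ 1 → HasNormalPComplement p (centralizer ({x} : Set G))
  ps : ∀ x y : G, orderOf x = p → orderOf y = p → IsPSolvable p (closure ({x, y} : Set G))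

/-- The centre of `P`. -/
abbrev ZZ (P : Subgroup G) : Subgroup G := P ⊓ centralizer (P : Set G)

/-- The elements of order dividing `p` of the centre of `P`. -/
def AA (p : ℕ) (P : Subgroup G) : Subgroup G where
  carrier := {a | a ∈ ZZ P ∧ a ^ p = 1}
  one_mem' := ⟨one_mem _, one_pow _⟩
  mul_mem' := by
    rintro a b ⟨ha, ha'⟩ ⟨hb, hb'⟩
    refine ⟨mul_mem ha hb, ?_⟩
    have : Commute a b := hb.2 a ha.1
    rw [this.mul_pow, ha', hb', one_mul]
  inv_mem' := by
    rintro a ⟨ha, ha'⟩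
    exact ⟨inv_mem ha, by rw [inv_pow, ha', inv_one]⟩

omit [Finite G] hp in
theorem mem_AA {P : Subgroup G} {a : G} :
    a ∈ AA p P ↔ (a ∈ P ∧ ∀ x ∈ P, x * a = a * x) ∧ a ^ p = 1 := Iff.rfl

omit [Finite G] hp in
theorem AA_le (P : Subgroup G) : AA p P ≤ P := fun _ h => h.1.1

omit [Finite G] hp in
theorem AA_comm {P : Subgroup G} {a x : G} (ha : a ∈ AA p P) (hx : x ∈ P) : x * a = a * x :=
  ha.1.2 x hx

omit [Finite G] in
theorem AA_ord {P : Subgroup G} {a : G} (ha : a ∈ AA p P) (h1 : a ≠ 1) : orderOf a = p :=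
  orderOf_eq_prime ha.2 h1

omit [Finite G] hp in
theorem conj_mem_P {P : Subgroup G} {n x : G} (hn : n ∈ normalizer (P : Set G)) (hx : x ∈ P) :
    n * x * n⁻¹ ∈ P := (mem_normalizer_iff.1 hn x).1 hx

omit [Finite G] hp in
theorem conj_mem_ZZ {P : Subgroup G} {n z : G} (hn : n ∈ normalizer (P : Set G)) (hz : z ∈ ZZ P) :
    n * z * n⁻¹ ∈ ZZ P := by
  refine ⟨conj_mem_P hn hz.1, fun x hx => ?_⟩
  have h := hz.2 _ (conj_mem_P (inv_mem hn) hx)
  calc x * (n * z * n⁻¹) = n * (n⁻¹ * x * n⁻¹⁻¹ * z) * n⁻¹ := by group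
    _ = n * z * n⁻¹ * x := by rw [h]; group

omit [Finite G] hp in
theorem norm_ZZ {P : Subgroup G} {n : G} (hn : n ∈ normalizer (P : Set G)) :
    n ∈ normalizer (ZZ P : Set G) := by
  refine mem_normalizer_iff.2 fun z => ⟨conj_mem_ZZ hn, fun h => ?_⟩
  simpa [mul_assoc] using conj_mem_ZZ (inv_mem hn) h

omit [Finite G] hp in
theorem conj_mem_AA {P : Subgroup G} {n a : G} (hn : n ∈ normalizer (P : Set G)) (ha : a ∈ AA p P) :
    n * a * n⁻¹ ∈ AA p P :=
  ⟨conj_mem_ZZ hn ha.1, by rw [conj_pow, ha.2]; simp⟩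

theorem exists_ZZ {P : Subgroup G} (hP : IsPGroup p P) (h : P ≠ ⊥) : ∃ z ∈ ZZ P, z ≠ 1 := by
  haveI := (nontrivial_iff_ne_bot P).2 h
  haveI := hP.center_nontrivial
  obtain ⟨⟨z, hz⟩, h1⟩ := exists_ne (1 : center P)
  refine ⟨z, ⟨z.2, fun x hx => congrArg Subtype.val (mem_center_iff.1 hz ⟨x, hx⟩)⟩, fun e => h1 ?_⟩
  exact Subtype.ext (Subtype.ext e)

theorem exists_pow_ord {x : G} (hx : H35.IsPElt p x) (h1 : x ≠ 1) :
    ∃ k : ℕ, x ^ k ≠ 1 ∧ (x ^ k) ^ p = 1 := by
  obtain ⟨m, hm⟩ := hx.dvd_orderOf h1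
  have h0 := orderOf_pos x
  have h2 : 0 < m := Nat.pos_of_ne_zero fun e => by rw [e] at hm; omega
  refine ⟨m, pow_ne_one_of_lt_orderOf h2.ne' ?_, by
    rw [← pow_mul, mul_comm, ← hm, pow_orderOf_eq_one]⟩
  have := hp.out.two_le
  nlinarith

theorem exists_AA {P : Subgroup G} (hP : IsPGroup p P) (h : P ≠ ⊥) : ∃ a ∈ AA p P, a ≠ 1 := by
  obtain ⟨z, hz, h1⟩ := exists_ZZ hP h
  obtain ⟨k, h2, h3⟩ := exists_pow_ord (H35.isPElt_of_mem hP hz.1) h1
  exact ⟨_, ⟨pow_mem hz k, h3⟩, h2⟩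

theorem mem_P_of_norm (P : Sylow p G) {x : G} (hx : H35.IsPElt p x)
    (hn : x ∈ normalizer ((P : Subgroup G) : Set G)) : x ∈ (P : Subgroup G) := by
  have h := (H35.isPElt_iff_zpowers.1 hx).inf_normalizer_sylow P
  have : x ∈ zpowers x ⊓ normalizer (P : Set G) := ⟨mem_zpowers x, hn⟩
  rw [h] at this
  exact this.2

theorem fus_of_npc (P : Sylow p G) {K : Subgroup G} (hle : (P : Subgroup G) ≤ K)
    (h : HasNormalPComplement p K) {c y : G} (hc : c ∈ K) (hy : y ∈ (P : Subgroup G))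
    (hy' : c * y * c⁻¹ ∈ (P : Subgroup G)) :
    ∃ v ∈ (P : Subgroup G), v * y * v⁻¹ = c * y * c⁻¹ := by
  obtain ⟨v, hv, e⟩ := (H4.hasNormalPComplement_iff_controls_fusion (P.subtype hle)).1 h
    ⟨y, hle hy⟩ hy ⟨c, hc⟩ hy'
  exact ⟨v, hv, congrArg Subtype.val e⟩

theorem eq_bot_of_normal (hO : pPrimeCore p G = ⊥) {N : Subgroup G} [N.Normal]
    (h : ¬ p ∣ Nat.card N) : N = ⊥ :=
  eq_bot_iff.2 (hO ▸ H1.le_pPrimeCore_of_not_dvd h)

theorem isPGroup_of_npc (hO : pPrimeCore p G = ⊥) {M : Subgroup G} [M.Normal]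
    (h : HasNormalPComplement p M) : IsPGroup p M := by
  obtain ⟨N, hN, h1, k, h2⟩ := H4.hasNormalPComplement_iff_exists.1 h
  have h3 : N ≤ pPrimeCore p M := H1.le_pPrimeCore_of_not_dvd h1
  have h4 := H1.map_subtype_pPrimeCore_le (p := p) M
  rw [hO, le_bot_iff, map_eq_bot_iff_of_injective _ M.subtype_injective] at h4
  rw [h4, le_bot_iff] at h3
  subst h3
  rw [index_bot] at h2
  exact IsPGroup.of_card h2

variable {P : Sylow p G}

namespace Hyp

variable (h : Hyp P)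
include h

theorem scZ {z y : G} (hz : z ∈ ZZ (P : Subgroup G)) (hy : y ∈ (P : Subgroup G)) (hc : IsConj z y) :
    y ∈ ZZ (P : Subgroup G) := by
  obtain ⟨n, hn, rfl⟩ := h.fus z hz.1 y hy hc
  exact conj_mem_ZZ hn hz

theorem scA {z y : G} (hz : z ∈ AA p (P : Subgroup G)) (hy : y ∈ (P : Subgroup G))
    (hc : IsConj z y) : y ∈ AA p (P : Subgroup G) := by
  obtain ⟨n, hn, rfl⟩ := h.fus z hz.1.1 y hy hc
  exact conj_mem_AA hn hz

/-- A `p'`-element of `N(P)` centralizing a non-trivial element of `P` centralizes `P`. -/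
theorem cent_of_comm {n u : G} (hn : n ∈ normalizer ((P : Subgroup G) : Set G))
    (ho : ¬ p ∣ orderOf n) (hu : u ∈ (P : Subgroup G)) (h1 : u ≠ 1) (hc : n * u = u * n) :
    n ∈ centralizer ((P : Subgroup G) : Set G) := by
  have hco : (orderOf n).Coprime p := ((Nat.Prime.coprime_iff_not_dvd hp.out).2 ho).symm
  obtain ⟨z, hz, hz1⟩ := exists_ZZ P.isPGroup' (fun e => h1 (by rw [e] at hu; exact hu))
  have h2 := H4.mem_centralizer_of_hasNormalPComplement (h.pn u hu h1)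
    (Q := ZZ (P : Subgroup G)) (P.isPGroup'.to_le inf_le_left)
    (fun x hx => mem_centralizer_singleton_iff.2 (hx.2 u hu).symm)
    (mem_centralizer_singleton_iff.2 hc) (norm_ZZ hn) hco
  exact H4.mem_centralizer_of_hasNormalPComplement (h.pn z hz.1 hz1) P.isPGroup'
    (fun x hx => mem_centralizer_singleton_iff.2 (hz.2 x hx))
    (mem_centralizer_singleton_iff.2 (h2 z hz).symm) hn hco

/-- An element of `N(P)` centralizing a non-trivial element of `P` centralizes `Z(P)`. -/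
theorem semi {n u : G} (hn : n ∈ normalizer ((P : Subgroup G) : Set G))
    (hu : u ∈ (P : Subgroup G)) (h1 : u ≠ 1) (hc : n * u = u * n) {z : G}
    (hz : z ∈ ZZ (P : Subgroup G)) : n * z = z * n := by
  have h2 := h.cent_of_comm (H35.pReg_mem p hn) (H35.not_dvd_orderOf_pReg p n) hu h1
    (H35.commute_pReg_of_commute p (show Commute u n from hc.symm)).symm
  have h3 := mem_P_of_norm P (H35.isPElt_pPart p n) (H35.pPart_mem p hn)
  rw [← H35.pPart_mul_pReg p n, mul_assoc, ← h2 z hz.1, ← mul_assoc, hz.2 _ h3, mul_assoc]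

theorem weak {S : Sylow p G} {g : G} (hS : ∀ z ∈ ZZ (P : Subgroup G), g * z * g⁻¹ ∈ S) :
    MulAut.conj g • ZZ (P : Subgroup G) = ZZ (S : Subgroup G) := by
  obtain ⟨k, rfl⟩ := MulAction.exists_smul_eq G P S
  have e : ZZ ((k • P : Sylow p G) : Subgroup G) = MulAut.conj k • ZZ (P : Subgroup G) := by
    ext x
    rw [mem_pointwise_smul_iff_inv_smul_mem]
    simp only [ZZ, mem_inf, mem_centralizer_iff, SetLike.mem_coe]
    change (x ∈ k • P ∧ ∀ y, y ∈ k • P → y * x = x * y) ↔ _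
    simp only [H4.mem_smul_sylow_iff, MulAut.smul_def, MulAut.conj_inv_apply]
    refine and_congr Iff.rfl ⟨fun H y hy => ?_, fun H y hy => ?_⟩
    · have := H (k * y * k⁻¹) (by rw [show k⁻¹ * (k * y * k⁻¹) * k = y by group]; exact hy)
      calc y * (k⁻¹ * x * k) = k⁻¹ * (k * y * k⁻¹ * x) * k := by group
        _ = _ := by rw [this]; group
    · have := H _ hy
      calc y * x = k * (k⁻¹ * y * k * (k⁻¹ * x * k)) * k⁻¹ := by group
        _ = _ := by rw [this]; group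
  rw [e]
  refine eq_of_le_of_card_ge ?_ ?_
  · rintro _ ⟨z, hz, rfl⟩
    rw [mem_pointwise_smul_iff_inv_smul_mem]
    refine h.scZ hz (H4.mem_smul_sylow_iff.1 (hS z hz)) (isConj_iff.2 ⟨k⁻¹ * g, ?_⟩)
    simp [mul_assoc]
  · rw [Nat.card_congr (equivSMul (MulAut.conj k) _).symm.toEquiv,
      Nat.card_congr (equivSMul (MulAut.conj g) _).symm.toEquiv]

/-- Fusion is controlled by the normalizer inside every subgroup containing `P`. -/
theorem fus_sub {K : Subgroup G} (hle : (P : Subgroup G) ≤ K) {x g : G} (hx : x ∈ (P : Subgroup G))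
    (hg : g ∈ K) (hy : g * x * g⁻¹ ∈ (P : Subgroup G)) :
    ∃ n ∈ K, n ∈ normalizer ((P : Subgroup G) : Set G) ∧ n * x * n⁻¹ = g * x * g⁻¹ := by
  by_cases h1 : x = 1
  · exact ⟨1, one_mem _, one_mem _, by simp [h1]⟩
  obtain ⟨z, hz, hz1⟩ := exists_ZZ P.isPGroup' (fun e => h1 (by rw [e] at hx; exact hx))
  have hZ : IsPGroup p (ZZ (P : Subgroup G)) := P.isPGroup'.to_le inf_le_left
  obtain ⟨S, k, hk, h2, h3⟩ := H4.exists_conj_le_common_sylow
    (K := K ⊓ centralizer {g * x * g⁻¹}) hZ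
    (fun w hw => ⟨hle hw.1, mem_centralizer_singleton_iff.2 (hw.2 _ hy).symm⟩)
    (H4.isPGroup_conj_smul hZ g) (by
      rintro _ ⟨w, hw, rfl⟩
      refine ⟨K.mul_mem (K.mul_mem hg (hle hw.1)) (K.inv_mem hg), mem_centralizer_singleton_iff.2 ?_⟩
      change g * w * g⁻¹ * (g * x * g⁻¹) = g * x * g⁻¹ * (g * w * g⁻¹)
      calc _ = g * (w * x) * g⁻¹ := by group
        _ = _ := by rw [← hw.2 x hx]; group)
  have e1 := h.weak (S := S) (g := 1) fun w hw => by rw [one_mul, inv_one, mul_one]; exact h2 hw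
  have e2 := h.weak (S := S) (g := k * g) fun w hw => by
    have := h3 (g * w * g⁻¹) ⟨w, hw, rfl⟩
    simpa [mul_assoc] using this
  rw [map_one, one_smul] at e1
  have hk2 : k * (g * x * g⁻¹) = g * x * g⁻¹ * k := mem_centralizer_singleton_iff.1 hk.2
  have hkg : k * g ∈ K := mul_mem hk.1 hg
  obtain ⟨c, hc, hn⟩ := H4.exists_mem_normalizer_sylow_of_le_normalizer P
    (K := K ⊓ centralizer (ZZ (P : Subgroup G) : Set G)) (g := k * g)
    (fun w hw => ⟨hle hw, fun v hv => (hv.2 w hw).symm⟩) (fun w hw => by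
      have hw' := H4.mem_smul_sylow_iff.1 hw
      refine ⟨by simpa [mul_assoc] using mul_mem (mul_mem hkg (hle hw')) (inv_mem hkg), fun v hv => ?_⟩
      have hv' : v ∈ MulAut.conj (k * g) • ZZ (P : Subgroup G) := by rw [e2, ← e1]; exact hv
      obtain ⟨u, hu, rfl⟩ := hv'
      have := hu.2 _ hw'
      change k * g * u * (k * g)⁻¹ * w = w * (k * g * u * (k * g)⁻¹)
      calc _ = k * g * (u * ((k * g)⁻¹ * w * (k * g))) * (k * g)⁻¹ := by group
        _ = _ := by rw [← this]; group)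
  have e3 : c * (k * g) * x * (c * (k * g))⁻¹ = c * (g * x * g⁻¹) * c⁻¹ := by
    calc _ = c * (k * (g * x * g⁻¹) * k⁻¹) * c⁻¹ := by group
      _ = _ := by rw [hk2]; group
  obtain ⟨v, hv, e4⟩ := fus_of_npc P (K := centralizer {z})
    (fun w hw => mem_centralizer_singleton_iff.2 (hz.2 w hw)) (h.pn z hz.1 hz1)
    (mem_centralizer_singleton_iff.2 (hc.2 z hz).symm) hy (e3 ▸ conj_mem_P hn hx)
  refine ⟨v⁻¹ * (c * (k * g)), mul_mem (inv_mem (hle hv)) (mul_mem hc.1 hkg),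
    mul_mem (inv_mem (le_normalizer hv)) hn, ?_⟩
  calc _ = v⁻¹ * (c * (k * g) * x * (c * (k * g))⁻¹) * v := by group
    _ = _ := by rw [e3, ← e4]; group

theorem sub {K : Subgroup G} (hle : (P : Subgroup G) ≤ K) : Hyp (P.subtype hle) where
  fus x hx y hy hc := by
    obtain ⟨g, rfl⟩ := isConj_iff.1 hc
    obtain ⟨n, hn, hn', e⟩ := h.fus_sub hle hx g.2 hy
    exact ⟨⟨n, hn⟩, mem_normalizer_iff.2 fun w => mem_normalizer_iff.1 hn' w, Subtype.ext e⟩
  pn x hx h1 := by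
    refine H4.hasNormalPComplement_of_injective (h.pn x hx fun e => h1 (Subtype.ext e))
      ((K.subtype.comp (centralizer {x}).subtype).codRestrict _ fun w =>
        mem_centralizer_singleton_iff.2
          (congrArg Subtype.val (mem_centralizer_singleton_iff.1 w.2))) fun a b e => ?_
    exact Subtype.ext (Subtype.ext (congrArg (fun w : centralizer ({(x : G)} : Set G) => (w : G)) e))
  ps x y hx hy := by
    have h1 := h.ps x y (by rwa [orderOf_coe]) (by rwa [orderOf_coe])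
    have e : (closure ({x, y} : Set K)).map K.subtype = closure {(x : G), (y : G)} := by
      rw [MonoidHom.map_closure, Set.image_pair]; rfl
    rw [← e] at h1
    let φ := equivMapOfInjective (closure ({x, y} : Set K)) _ K.subtype_injective
    exact H76.isPSolvable_of_injective h1 (f := φ.toMonoidHom) φ.injective

/-- `G` has no non-trivial normal `p`-subgroup. -/
theorem no_pnormal (hO : pPrimeCore p G = ⊥) (hnn : ¬ (P : Subgroup G).Normal) {M : Subgroup G}
    [hM : M.Normal] (hMp : IsPGroup p M) : M = ⊥ := by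
  by_contra h0
  have hMP : M ≤ P := hMp.le_sylow_of_normal P
  obtain ⟨z, hz, hz1⟩ : ∃ z ∈ M ⊓ ZZ (P : Subgroup G), z ≠ 1 := by
    haveI : (M.subgroupOf (P : Subgroup G)).Normal := hM.subgroupOf _
    have h1 : M.subgroupOf (P : Subgroup G) ≠ ⊥ := by
      rw [Ne, subgroupOf_eq_bot, disjoint_iff, inf_eq_left.2 hMP]; exact h0
    obtain ⟨⟨z, hz, hz'⟩, h2⟩ := (ne_bot_iff_exists_ne_one).1
      (H5.inf_center_ne_bot P.isPGroup' _ h1)
    exact ⟨z, ⟨hz, z.2, fun x hx => congrArg Subtype.val (mem_center_iff.1 hz' ⟨x, hx⟩)⟩,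
      fun e => h2 (Subtype.ext (Subtype.ext e))⟩
  have h1 : normalClosure {z} ≤ ZZ (P : Subgroup G) := by
    refine closure_le _ |>.2 fun y hy => ?_
    obtain ⟨w, hw, hc⟩ := Group.mem_conjugatesOfSet_iff.1 hy
    obtain rfl : w = z := hw
    obtain ⟨g, rfl⟩ := isConj_iff.1 hc
    exact h.scZ hz.2 (hMP (hM.conj_mem _ hz.1 g)) hc
  have h2 : (P : Subgroup G) ≤ centralizer (normalClosure {z} : Set G) :=
    fun x hx y hy => ((h1 hy).2 x hx).symm
  have h3 := isPGroup_of_npc hO (M := centralizer (normalClosure {z} : Set G))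
    (H4.hasNormalPComplement_of_subgroup_le (h.pn z hz.2.1 hz1)
      (centralizer_le (Set.singleton_subset_iff.2 (subset_normalClosure rfl))))
  exact hnn (P.3 h3 h2 ▸ inferInstance)

theorem surj_comm {f : G} (hn : f ∈ normalizer ((P : Subgroup G) : Set G)) (ho : ¬ p ∣ orderOf f)
    (hf : f ∉ centralizer ((P : Subgroup G) : Set G)) {y : G} (hy : y ∈ (P : Subgroup G)) :
    ∃ x ∈ (P : Subgroup G), x⁻¹ * (f * x * f⁻¹) = y := by
  let φ : ↥(P : Subgroup G) → ↥(P : Subgroup G) := fun x =>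
    ⟨(x : G)⁻¹ * (f * x * f⁻¹), mul_mem (inv_mem x.2) (conj_mem_P hn x.2)⟩
  have hinj : Function.Injective φ := by
    intro x x' e
    have e' : (x : G)⁻¹ * (f * x * f⁻¹) = (x' : G)⁻¹ * (f * x' * f⁻¹) := congrArg Subtype.val e
    by_contra hne
    refine hf (h.cent_of_comm hn ho (mul_mem x.2 (inv_mem x'.2))
      (fun e => hne (Subtype.ext (mul_inv_eq_one.1 e))) ?_)
    calc f * (x * (x' : G)⁻¹) = x * ((x : G)⁻¹ * (f * x * f⁻¹)) * (f * (x' : G)⁻¹) := by group
      _ = _ := by rw [e']; group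
  obtain ⟨x, hx⟩ := Finite.injective_iff_surjective.1 hinj ⟨y, hy⟩
  exact ⟨x, x.2, congrArg Subtype.val hx⟩

theorem npc_of_cent (hc : ∀ f ∈ normalizer ((P : Subgroup G) : Set G), ¬ p ∣ orderOf f →
    f ∈ centralizer ((P : Subgroup G) : Set G)) : HasNormalPComplement p G := by
  refine (H4.hasNormalPComplement_iff_controls_fusion P).2 fun x hx g hg => ?_
  obtain ⟨n, hn, e⟩ := h.fus x hx _ hg (isConj_iff.2 ⟨g, rfl⟩)
  refine ⟨_, mem_P_of_norm P (H35.isPElt_pPart p n) (H35.pPart_mem p hn), ?_⟩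
  have h2 := hc _ (H35.pReg_mem p hn) (H35.not_dvd_orderOf_pReg p n) x hx
  rw [← e]
  conv_rhs => rw [← H35.pPart_mul_pReg p n]
  calc _ = H35.pPart p n * (x * H35.pReg p n) * (H35.pReg p n)⁻¹ * (H35.pPart p n)⁻¹ := by group
    _ = _ := by rw [h2]; group

/-- Every non-trivial normal subgroup contains `P`. -/
theorem le_of_normal (hO : pPrimeCore p G = ⊥) (hnn : ¬ (P : Subgroup G).Normal) {M : Subgroup G}
    [hM : M.Normal] (h0 : M ≠ ⊥) : (P : Subgroup G) ≤ M := by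
  have hle : (P : Subgroup G) ≤ M ⊔ P := le_sup_right
  by_cases hc : ∀ f ∈ M, f ∈ normalizer ((P : Subgroup G) : Set G) → ¬ p ∣ orderOf f →
      f ∈ centralizer ((P : Subgroup G) : Set G)
  · have h1 := (h.sub hle).npc_of_cent fun f hf ho => by
      have hfM : (f : G) ∈ M := by
        have h2 : IsPGroup p ((M ⊔ P : Subgroup G).map (QuotientGroup.mk' M)) := by
          rw [Subgroup.map_sup, (Subgroup.map_eq_bot_iff _).2 (by rw [QuotientGroup.ker_mk']), bot_sup_eq]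
          exact P.isPGroup'.map _
        have h3 := H35.isPElt_of_mem h2 (mem_map_of_mem _ f.2)
        refine (QuotientGroup.eq_one_iff _).1 (h3.eq_one_of_not_dvd
          (H35.not_dvd_orderOf_map _ (by rwa [orderOf_coe])))
      have h4 := hc f hfM (mem_normalizer_iff.2 fun w => ⟨fun hw => ?_, fun hw => ?_⟩)
        (by rwa [orderOf_coe])
      · exact fun w hw => Subtype.ext (h4 w hw)
      · exact (mem_normalizer_iff.1 hf ⟨w, hle hw⟩).1 hw
      · have := (mem_normalizer_iff.1 (inv_mem hf) ⟨_, hle hw⟩).1 hw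
        change (f : G)⁻¹ * (f * w * (f : G)⁻¹) * (f : G)⁻¹⁻¹ ∈ (P : Subgroup G) at this
        simpa [mul_assoc] using this
    exact absurd (h.no_pnormal hO hnn (isPGroup_of_npc hO
      (H4.hasNormalPComplement_of_subgroup_le h1 le_sup_left))) h0
  · push Not at hc
    obtain ⟨f, hf, hn, ho, hf'⟩ := hc
    intro y hy
    obtain ⟨x, -, rfl⟩ := h.surj_comm hn ho hf' hy
    have := hM.conj_mem _ hf x⁻¹
    have e : x⁻¹ * (f * x * f⁻¹) = x⁻¹ * f * x⁻¹⁻¹ * f⁻¹ := by group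
    rw [e]
    exact mul_mem this (inv_mem hf)

end Hyp

end H24.Gl
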