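import Cfsg.Agent.Lib.GlSz.G1

/-! Products of conjugates of central elements of order `p`, and reduction to simple groups. -/

set_option autoImplicit false
set_option linter.unusedSectionVars false
set_option linter.style.haveILetI false

namespace H24.Gl

open Cfsg Subgroup
open scoped Pointwise

variable {G : Type*} [Group G] [Finite G] {p : ℕ} [hp : Fact p.Prime]

theorem isConj_pPart_of_mk {N : Subgroup G} [N.Normal] (h1 : ¬ p ∣ Nat.card N) {k : ℕ}
    (h2 : N.index = p ^ k) (hc : ∀ x y : G ⧸ N, x * y = y * x) (S : Sylow p G) {g s : G}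
    (hs : s ∈ (S : Subgroup G)) (e : (g : G ⧸ N) = s) : IsConj (H35.pPart p g) s := by
  obtain ⟨m, hm⟩ := (H35.isPElt_pPart p g).exists_conj_mem S
  have h3 : ((H35.pPart p g : G) : G ⧸ N) = g := by
    conv_rhs => rw [← H35.pPart_mul_pReg p g]
    rw [QuotientGroup.mk_mul, (QuotientGroup.eq_one_iff _).2
      (H35.mem_of_not_dvd_of_index h2 (H35.not_dvd_orderOf_pReg p g)), mul_one]
  have h4 : (m * H35.pPart p g * m⁻¹)⁻¹ * s ∈ N ⊓ (S : Subgroup G) := by
    refine ⟨QuotientGroup.eq.1 ?_, (S : Subgroup G).mul_mem ((S : Subgroup G).inv_mem hm) hs⟩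
    rw [QuotientGroup.mk_mul, QuotientGroup.mk_mul, h3, e, hc (m : G ⧸ N), QuotientGroup.mk_inv,
      mul_inv_cancel_right]
  rw [H4.inf_eq_bot_of_not_dvd_card h1 S.isPGroup', mem_bot, inv_mul_eq_one] at h4
  exact isConj_iff.2 ⟨m, h4⟩

theorem pair {a b : G} (hs : IsPSolvable p G) (hab : closure {a, b} = ⊤)
    (ha : ∀ S : Sylow p G, a ∈ (S : Subgroup G) → a ∈ centralizer ((S : Subgroup G) : Set G))
    (hb : ∀ S : Sylow p G, b ∈ (S : Subgroup G) → b ∈ centralizer ((S : Subgroup G) : Set G))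
    (ha' : H35.IsPElt p a) (hb' : H35.IsPElt p b) :
    ∃ (S : Sylow p G) (c : G), a ∈ (S : Subgroup G) ∧ c ∈ (S : Subgroup G) ∧ IsConj b c ∧
      IsConj (H35.pPart p (a * b)) (a * c) ∧ IsConj (H35.pPart p (a * b⁻¹)) (a * c⁻¹) := by
  obtain ⟨S, hS⟩ := ha'.exists_sylow
  obtain ⟨T, hT⟩ := hb'.exists_sylow
  have h0 : pPrimePCore p G = ⊤ := by
    rw [eq_top_iff, ← hab, closure_le]
    rintro x (rfl | rfl)
    · exact H76.inf_centralizer_sylow_le hs S (ha S hS)
    · exact H76.inf_centralizer_sylow_le hs T (hb T hT)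
  have h1 : HasNormalPComplement p G := by
    have := H49.hasNormalPComplement_pPrimePCore (p := p) (G := G)
    rwa [h0, H4.hasNormalPComplement_top_iff] at this
  obtain ⟨N, hN, h2, k, h3⟩ := H4.hasNormalPComplement_iff_exists.1 h1
  have hcen : ∀ (T : Sylow p G) (x : G), x ∈ centralizer ((T : Subgroup G) : Set G) →
      (x : G ⧸ N) ∈ center (G ⧸ N) := by
    intro T x hx
    refine mem_center_iff.2 fun y => ?_
    obtain ⟨y, rfl⟩ := QuotientGroup.mk_surjective y
    obtain ⟨N', hN', hc⟩ := (H4.hasNormalPComplement_iff_sylow T).1 h1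
    obtain ⟨⟨n, t⟩, rfl⟩ := hc.2 y
    have hn : (n : G) ∈ N := H35.mem_of_not_dvd_of_index h3 (by
      refine H35.not_dvd_orderOf_of_mem ?_ n.2
      rw [hc.index_eq_card.symm]
      exact T.not_dvd_index)
    simp only [QuotientGroup.mk_mul, (QuotientGroup.eq_one_iff _).2 hn, one_mul]
    rw [← QuotientGroup.mk_mul, hx t t.2, QuotientGroup.mk_mul]
  have hc : ∀ x y : G ⧸ N, x * y = y * x := by
    intro x y
    obtain ⟨y, rfl⟩ := QuotientGroup.mk_surjective y
    have : (⊤ : Subgroup G) ≤ (center (G ⧸ N)).comap (QuotientGroup.mk' N) := by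
      rw [← hab, closure_le]
      rintro x (rfl | rfl)
      · exact hcen S _ (ha S hS)
      · exact hcen T _ (hb T hT)
    exact mem_center_iff.1 (this (mem_top y)) x
  obtain ⟨m, hm⟩ := hb'.exists_conj_mem S
  have e : ((m * b * m⁻¹ : G) : G ⧸ N) = b := by
    rw [QuotientGroup.mk_mul, QuotientGroup.mk_mul, hc (m : G ⧸ N), QuotientGroup.mk_inv,
      mul_inv_cancel_right]
  refine ⟨S, _, hS, hm, isConj_iff.2 ⟨m, rfl⟩,
    isConj_pPart_of_mk h2 h3 hc S (mul_mem hS hm) ?_,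
    isConj_pPart_of_mk h2 h3 hc S (mul_mem hS (inv_mem hm)) ?_⟩
  · rw [QuotientGroup.mk_mul, QuotientGroup.mk_mul _ a, e]
  · rw [QuotientGroup.mk_mul, QuotientGroup.mk_mul _ a, QuotientGroup.mk_inv, QuotientGroup.mk_inv, e]

variable {P : Sylow p G}

namespace Hyp

variable (h : Hyp P)
include h

theorem comm_of_conj {a x : G} (ha : a ∈ AA p (P : Subgroup G)) (hx : IsConj a x) {S : Subgroup G}
    (hS : IsPGroup p S) (hxS : x ∈ S) {s : G} (hs : s ∈ S) : s * x = x * s := by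
  obtain ⟨w, hw⟩ := H4.exists_conj_smul_le_sylow P hS
  have h1 := h.scA ha (hw ⟨x, hxS, rfl⟩) (hx.trans (isConj_iff.2 ⟨w, rfl⟩))
  have h2 := AA_comm h1 (hw ⟨s, hs, rfl⟩)
  change w * s * w⁻¹ * (w * x * w⁻¹) = w * x * w⁻¹ * (w * s * w⁻¹) at h2
  calc s * x = w⁻¹ * (w * s * w⁻¹ * (w * x * w⁻¹)) * w := by group
    _ = _ := by rw [h2]; group

theorem tau {a b b' : G} (ha : a ∈ AA p (P : Subgroup G)) (ha1 : a ≠ 1)
    (hb : b ∈ AA p (P : Subgroup G)) (hb1 : b ≠ 1) (hbb : IsConj b b') :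
    ∃ c ∈ AA p (P : Subgroup G), IsConj b c ∧ IsConj (H35.pPart p (a * b')) (a * c) ∧
      IsConj (H35.pPart p (a * b'⁻¹)) (a * c⁻¹) := by
  have hoa := AA_ord ha ha1
  have hob : orderOf b' = p := by rw [← H35.orderOf_eq_of_isConj hbb, AA_ord hb hb1]
  let H := closure ({a, b'} : Set G)
  have haH : a ∈ H := subset_closure (Or.inl rfl)
  have hbH : b' ∈ H := subset_closure (Or.inr rfl)
  have key : ∀ {z : G} (x : H), z ∈ AA p (P : Subgroup G) → IsConj z x → ∀ S : Sylow p H,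
      x ∈ (S : Subgroup H) → x ∈ centralizer ((S : Subgroup H) : Set H) := by
    intro z x hz hc S hx s hs
    exact Subtype.ext (h.comm_of_conj hz hc (S.isPGroup'.map H.subtype) ⟨x, hx, rfl⟩ ⟨s, hs, rfl⟩)
  obtain ⟨S, c, h1, h2, h3, h4, h5⟩ := pair (a := (⟨a, haH⟩ : H)) (b := ⟨b', hbH⟩)
    (h.ps a b' hoa hob) (by
      refine map_injective H.subtype_injective ?_
      rw [MonoidHom.map_closure, Set.image_pair, ← MonoidHom.range_eq_map, range_subtype]; rfl)
    (key _ ha (IsConj.refl _)) (key _ hb hbb)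
    ((H35.isPElt_coe _).1 ⟨1, by rw [pow_one]; exact hoa⟩)
    ((H35.isPElt_coe _).1 ⟨1, by rw [pow_one]; exact hob⟩)
  obtain ⟨w, hw⟩ := H4.exists_conj_smul_le_sylow P (S.isPGroup'.map H.subtype)
  have ha2 : w * a * w⁻¹ ∈ (P : Subgroup G) := hw ⟨a, ⟨_, h1, rfl⟩, rfl⟩
  have hc2 : w * c * w⁻¹ ∈ (P : Subgroup G) := hw ⟨c, ⟨_, h2, rfl⟩, rfl⟩
  obtain ⟨n, hn, e⟩ := h.fus _ ha2 a (AA_le _ ha) (isConj_iff.2 ⟨w, rfl⟩).symm
  have h3' : IsConj b' c := H.subtype.map_isConj h3
  have h6 : IsConj b (n * (w * c * w⁻¹) * n⁻¹) :=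
    (hbb.trans h3').trans (isConj_iff.2 ⟨n * w, by group⟩)
  have h4' := H.subtype.map_isConj h4
  have h5' := H.subtype.map_isConj h5
  rw [← H35.pPart_map] at h4' h5'
  refine ⟨_, h.scA hb (conj_mem_P hn hc2) h6, h6, h4'.trans (isConj_iff.2 ⟨n * w, ?_⟩),
    h5'.trans (isConj_iff.2 ⟨n * w, ?_⟩)⟩
  · conv_rhs => rw [← e]
    simp only [map_mul, coe_subtype]; group
  · conv_rhs => rw [← e]
    simp only [map_mul, map_inv, coe_subtype]; group

/-- If a central element of odd prime order is real then `P` is abelian. -/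
theorem comm_of_real (h2 : p ≠ 2) {a : G} (ha : a ∈ AA p (P : Subgroup G)) (ha1 : a ≠ 1)
    (hc : IsConj a a⁻¹) : ∀ x ∈ (P : Subgroup G), ∀ y ∈ (P : Subgroup G), x * y = y * x := by
  obtain ⟨n, hn, e⟩ := h.fus a (AA_le _ ha) _ (inv_mem (AA_le _ ha)) hc
  set f := H35.pReg p n
  have hf : f ∈ normalizer ((P : Subgroup G) : Set G) := H35.pReg_mem p hn
  have ho : ¬ p ∣ orderOf f := H35.not_dvd_orderOf_pReg p n
  have e' : f * a * f⁻¹ = a⁻¹ := by
    have h3 := AA_comm ha (mem_P_of_norm P (H35.isPElt_pPart p n) (H35.pPart_mem p hn))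
    have h4 : f * H35.pPart p n = n := H35.pReg_mul_pPart p n
    calc _ = f * (a * H35.pPart p n) * (f * H35.pPart p n)⁻¹ := by group
      _ = _ := by rw [← h3, ← mul_assoc, h4, e]
  have hf' : f ∉ centralizer ((P : Subgroup G) : Set G) := fun hc' => by
    rw [← hc' a (AA_le _ ha), mul_inv_cancel_right, eq_inv_iff_mul_eq_one, ← sq] at e'
    have := orderOf_dvd_of_pow_eq_one e'
    rw [AA_ord ha ha1] at this
    exact h2 ((Nat.prime_dvd_prime_iff_eq hp.out Nat.prime_two).1 this)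
  have hff := h.cent_of_comm (mul_mem hf hf) (by rw [← sq]; exact H35.not_dvd_orderOf_pow ho 2)
    (AA_le _ ha) ha1 (by
      calc f * f * a = f * (f * a * f⁻¹) * f⁻¹ * (f * f) := by group
        _ = f * a⁻¹ * f⁻¹ * (f * f) := by rw [e']
        _ = (f * a * f⁻¹)⁻¹ * (f * f) := by group
        _ = _ := by rw [e', inv_inv])
  have hinv : ∀ y ∈ (P : Subgroup G), f * y * f⁻¹ = y⁻¹ := by
    intro y hy
    obtain ⟨x, hx, rfl⟩ := h.surj_comm hf ho hf' hy
    calc f * (x⁻¹ * (f * x * f⁻¹)) * f⁻¹ = f * x⁻¹ * f⁻¹ * ((f * f) * x) * (f * f)⁻¹ := by group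
      _ = _ := by rw [← hff x hx]; group
  intro x hx y hy
  have h3 := hinv _ (mul_mem hx hy)
  have h4 : f * (x * y) * f⁻¹ = f * x * f⁻¹ * (f * y * f⁻¹) := by group
  rw [h4, hinv x hx, hinv y hy, ← mul_inv_rev, inv_inj] at h3
  exact h3.symm

open Classical in
theorem card_cl {a : G} (ha : a ∈ AA p (P : Subgroup G)) (ha1 : a ≠ 1) :
    {b | b ∈ AA p (P : Subgroup G) ∧ IsConj a b}.ncard =
      (centralizer (ZZ (P : Subgroup G) : Set G)).relIndex
        (normalizer ((P : Subgroup G) : Set G)) := by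
  letI : MulAction (normalizer ((P : Subgroup G) : Set G)) G :=
    MulAction.compHom G (MulAut.conj.comp (normalizer ((P : Subgroup G) : Set G)).subtype)
  have hs : ∀ (n : normalizer ((P : Subgroup G) : Set G)) (x : G), n • x = n * x * (n : G)⁻¹ :=
    fun _ _ => rfl
  have e1 : MulAction.orbit (normalizer ((P : Subgroup G) : Set G)) a =
      {b | b ∈ AA p (P : Subgroup G) ∧ IsConj a b} := by
    ext b
    constructor
    · rintro ⟨n, rfl⟩
      exact ⟨conj_mem_AA n.2 ha, isConj_iff.2 ⟨n, rfl⟩⟩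
    · rintro ⟨h1, h2⟩
      obtain ⟨n, hn, e⟩ := h.fus a (AA_le _ ha) b (AA_le _ h1) h2
      exact ⟨⟨n, hn⟩, e⟩
  rw [← e1, ← MulAction.index_stabilizer, relIndex]
  congr 1
  ext n
  rw [MulAction.mem_stabilizer_iff, hs, mem_subgroupOf, mul_inv_eq_iff_eq_mul]
  exact ⟨fun e z hz => (h.semi n.2 (AA_le _ ha) ha1 e hz).symm, fun e => (e a ha.1).symm⟩

theorem two_le_e (hn : ¬ HasNormalPComplement p G) :
    2 ≤ (centralizer (ZZ (P : Subgroup G) : Set G)).relIndex
        (normalizer ((P : Subgroup G) : Set G)) := by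
  have h0 : (centralizer (ZZ (P : Subgroup G) : Set G)).relIndex
      (normalizer ((P : Subgroup G) : Set G)) ≠ 0 := index_ne_zero_of_finite
  by_contra h1
  have h2 := relIndex_eq_one.1 (show (centralizer (ZZ (P : Subgroup G) : Set G)).relIndex
      (normalizer ((P : Subgroup G) : Set G)) = 1 by omega)
  refine hn (h.npc_of_cent fun f hf ho => ?_)
  by_cases hP : (P : Subgroup G) = ⊥
  · intro x hx
    rw [hP] at hx
    rw [show x = 1 from hx, one_mul, mul_one]
  obtain ⟨z, hz, hz1⟩ := exists_ZZ P.isPGroup' hP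
  exact h.cent_of_comm hf ho hz.1 hz1 (h2 hf z hz).symm

/-- The normal closure of `P` is simple. -/
theorem simple_closure (hO : pPrimeCore p G = ⊥) (hnn : ¬ (P : Subgroup G).Normal) :
    IsSimpleGroup (normalClosure ((P : Subgroup G) : Set G)) ∧
      ¬ ((P.subtype (le_normalClosure (H := (P : Subgroup G))) : Sylow p _) :
        Subgroup (normalClosure ((P : Subgroup G) : Set G))).Normal := by
  set L := normalClosure ((P : Subgroup G) : Set G)
  have hle : (P : Subgroup G) ≤ L := le_normalClosure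
  have hO' : pPrimeCore p L = ⊥ := by
    have h4 := H1.map_subtype_pPrimeCore_le (p := p) L
    rwa [hO, le_bot_iff, map_eq_bot_iff_of_injective _ L.subtype_injective] at h4
  have key : ∀ M : Subgroup L, M.Normal → (P.subtype hle : Subgroup L) ≤ M → M = ⊤ := by
    intro M hM hPM
    have : L ≤ M.map L.subtype := by
      refine closure_le _ |>.2 fun y hy => ?_
      obtain ⟨w, hw, hc⟩ := Group.mem_conjugatesOfSet_iff.1 hy
      have hyL : y ∈ L := conjugatesOfSet_subset_normalClosure hy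
      obtain ⟨k, hk⟩ := ((H35.isPElt_coe (⟨y, hyL⟩ : L)).1
        ((H35.isPElt_of_mem P.isPGroup' hw).of_isConj hc)).exists_conj_mem (P.subtype hle)
      refine ⟨⟨y, hyL⟩, ?_, rfl⟩
      simpa [mul_assoc] using hM.conj_mem _ (hPM hk) k⁻¹
    rw [eq_top_iff]
    intro x _
    obtain ⟨y, hy, e⟩ := this x.2
    rwa [← show y = x from Subtype.ext e]
  have hnn' : ¬ (P.subtype hle : Subgroup L).Normal := fun hN => by
    have h1 := key _ hN le_rfl
    have h2 : L ≤ P := fun x hx => by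
      have : (⟨x, hx⟩ : L) ∈ (P.subtype hle : Subgroup L) := h1 ▸ mem_top _
      exact this
    exact hnn (le_antisymm hle h2 ▸ inferInstance)
  refine ⟨?_, hnn'⟩
  haveI : Nontrivial L := by
    by_contra hL
    rw [not_nontrivial_iff_subsingleton] at hL
    exact hnn' ⟨fun n hn g => by rwa [Subsingleton.elim (g * n * g⁻¹) n]⟩
  refine ⟨fun M hM => ?_⟩
  by_cases h0 : M = ⊥
  · exact Or.inl h0
  · exact Or.inr (key M hM ((h.sub hle).le_of_normal hO' hnn' h0))

end Hyp

theorem not_npc_of_simple [IsSimpleGroup G] (hnn : ¬ (P : Subgroup G).Normal) :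
    ¬ HasNormalPComplement p G := fun hc => by
  obtain ⟨N, hN, h1⟩ := (H4.hasNormalPComplement_iff_sylow P).1 hc
  rcases hN.eq_bot_or_eq_top with rfl | rfl
  · exact hnn (isComplement'_bot_left.1 h1 ▸ inferInstance)
  · exact hnn (isComplement'_top_left.1 h1 ▸ inferInstance)

end H24.Gl
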