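import Mathlib

/-! A dimension argument for an algebra of functions spanned by orthogonal columns. -/

set_option autoImplicit false
set_option linter.unusedSectionVars false
set_option linter.style.haveILetI false

namespace H24.Gl

open Finset

variable {G I : Type*} [Group G] [Fintype G] [Fintype I] [DecidableEq I]

open Classical in
/-- Normalized columns `x a`, `a ∈ S`, with weights `n`. -/
structure HG (S : Finset G) (x : G → I → ℂ) (n : I → ℕ) (i0 : I) (q e : ℕ) : Prop where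
  inv : ∀ a ∈ S, a⁻¹ ∈ S
  cls : ∀ a b, IsConj a b → x a = x b
  card : ∀ a ∈ S, (S.filter (IsConj a)).card = e
  o1 : ∀ a ∈ S, ∑ i, n i * (x a i * x a⁻¹ i) = q
  o1' : ∀ a ∈ S, ∀ b ∈ S, ¬ IsConj b a⁻¹ → ∑ i, n i * (x a i * x b i) = 0
  o2 : ∀ a ∈ S, ∑ i, n i * x a i = 0
  m : ∀ a ∈ S, ∀ b ∈ S, ¬ IsConj b a⁻¹ → ∃ τ : G → G, (∀ g, τ g ∈ S) ∧
    (Fintype.card G : ℂ) • (x a * x b) = ∑ g, x (τ g)
  nz : ∀ a ∈ S, ∀ i, x a i ≠ 0
  triv : ∀ a ∈ S, ∀ i, x a i = 1 ↔ i = i0
  n0 : n i0 = 1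
  npos : ∀ i, 0 < n i
  lt : S.card < q
  two : 2 ≤ e

theorem isConj_inv_iff {a b : G} : IsConj a⁻¹ b⁻¹ ↔ IsConj a b := by
  simp only [isConj_iff]
  refine exists_congr fun g => ?_
  rw [← inv_inj]
  simp [mul_assoc]

theorem HG.false {S : Finset G} {x : G → I → ℂ} {n : I → ℕ} {i0 : I} {q e : ℕ}
    (h : HG S x n i0 q e) {a : G} (ha : a ∈ S) (hr : ¬ IsConj a a⁻¹) : False := by
  classical
  let U : Submodule ℂ (I → ℂ) := Submodule.span ℂ (x '' S)
  let w : I → ℂ := x a * x a⁻¹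
  let W : Submodule ℂ (I → ℂ) := U ⊔ Submodule.span ℂ {w}
  have hxU : ∀ b ∈ S, x b ∈ U := fun b hb => Submodule.subset_span ⟨b, hb, rfl⟩
  have hG : (Fintype.card G : ℂ) ≠ 0 := by exact_mod_cast Fintype.card_ne_zero
  have hU : ∀ b ∈ S, ∀ c ∈ S, ¬ IsConj c b⁻¹ → x b * x c ∈ U := by
    intro b hb c hc hbc
    obtain ⟨τ, h1, h2⟩ := h.m b hb c hc hbc
    rw [← U.smul_mem_iff hG, h2]
    exact U.sum_mem fun g _ => hxU _ (h1 g)
  have hwW : w ∈ W := Submodule.mem_sup_right (Submodule.subset_span rfl)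
  have hmulU : ∀ b ∈ S, x b * x b⁻¹ = w → ∀ u ∈ U, x b * u ∈ W := by
    intro b hb hw u hu
    induction hu using Submodule.span_induction with
    | mem y hy =>
      obtain ⟨c, hc, rfl⟩ := hy
      by_cases hbc : IsConj c b⁻¹
      · rw [h.cls _ _ hbc, hw]; exact hwW
      · exact Submodule.mem_sup_left (hU b hb c hc hbc)
    | zero => rw [mul_zero]; exact W.zero_mem
    | add y z _ _ h1 h2 => rw [mul_add]; exact W.add_mem h1 h2
    | smul c y _ h1 => rw [mul_smul_comm]; exact W.smul_mem c h1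
  have hmul : ∀ f ∈ W, x a * f ∈ W := by
    intro f hf
    obtain ⟨u, hu, v, hv, rfl⟩ := Submodule.mem_sup.1 hf
    obtain ⟨c, rfl⟩ := Submodule.mem_span_singleton.1 hv
    rw [mul_add, mul_smul_comm]
    refine W.add_mem (hmulU a ha rfl u hu) (W.smul_mem c ?_)
    have := hmulU a⁻¹ (h.inv a ha) (by rw [inv_inv, mul_comm]) _ (hU a ha a ha hr)
    rwa [show x a⁻¹ * (x a * x a) = x a * w by simp only [w]; ring] at this
  have hxW : x a ∈ W := Submodule.mem_sup_left (hxU a ha)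
  have hprod : ∀ (T : Finset I) (f : I → ℂ), f ∈ W →
      (fun i => f i * ∏ j ∈ T, (x a i - x a j)) ∈ W := by
    intro T f hf
    induction T using Finset.induction_on with
    | empty => simpa using hf
    | insert j T hj ih =>
      have := W.sub_mem (hmul _ ih) (W.smul_mem (x a j) ih)
      convert this using 1
      funext i
      simp only [prod_insert hj, Pi.sub_apply, Pi.mul_apply, Pi.smul_apply, smul_eq_mul]
      ring
  have hone : (1 : I → ℂ) ∈ W := by
    have key : ∀ T : Finset I,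
        (fun i => ∏ j ∈ T, (x a i - x a j) - ∏ j ∈ T, (-x a j)) ∈ W := by
      intro T
      induction T using Finset.induction_on with
      | empty => simp only [prod_empty, sub_self]; exact W.zero_mem
      | insert j T hj ih =>
        have := W.add_mem (W.sub_mem (hmul _ ih) (W.smul_mem (x a j) ih))
          (W.smul_mem (∏ j ∈ T, (-x a j)) hxW)
        convert this using 1
        funext i
        simp only [prod_insert hj, Pi.sub_apply, Pi.add_apply, Pi.mul_apply, Pi.smul_apply,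
          smul_eq_mul]
        ring
    have h1 : (∏ j, (-x a j)) ≠ 0 := prod_ne_zero_iff.2 fun j _ => neg_ne_zero.2 (h.nz a ha j)
    rw [← W.smul_mem_iff (neg_ne_zero.2 h1)]
    convert key univ using 1
    funext i
    rw [prod_eq_zero (f := fun j => x a i - x a j) (mem_univ i) (sub_self _)]
    simp
  have hx0 : ∀ b ∈ S, x b i0 = 1 := fun b hb => (h.triv b hb i0).2 rfl
  have hdel : (Pi.single i0 1 : I → ℂ) ∈ W := by
    have h1 : (∏ j ∈ univ.erase i0, (1 - x a j)) ≠ 0 := prod_ne_zero_iff.2 fun j hj =>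
      sub_ne_zero.2 fun e => ne_of_mem_erase hj ((h.triv a ha j).1 e.symm)
    rw [← W.smul_mem_iff h1]
    convert hprod (univ.erase i0) _ hxW using 1
    funext i
    by_cases hi : i = i0
    · subst hi; simp [hx0 a ha]
    · rw [prod_eq_zero (f := fun j => x a i - x a j) (mem_erase.2 ⟨hi, mem_univ i⟩) (sub_self _)]
      simp [hi]
  let φ : (I → ℂ) →ₗ[ℂ] ℂ := ∑ i, (n i : ℂ) • LinearMap.proj i
  have hφ : ∀ f, φ f = ∑ i, n i * f i := fun f => by simp [φ]
  let Pr : (I → ℂ) →ₗ[ℂ] (I → ℂ) :=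
    ∑ b ∈ S, (φ ∘ₗ LinearMap.mulRight ℂ (x b⁻¹)).smulRight (x b)
  have hPr : ∀ f, Pr f = ∑ b ∈ S, φ (f * x b⁻¹) • x b := fun f => by simp [Pr]
  have hPU : ∀ u ∈ U, Pr u = ((e : ℂ) * q) • u := by
    intro u hu
    induction hu using Submodule.span_induction with
    | mem y hy =>
      obtain ⟨c, hc, rfl⟩ := hy
      have e1 : ∀ b ∈ S.filter (IsConj c), φ (x c * x b⁻¹) • x b = (q : ℂ) • x c := by
        intro b hb
        have hb := (mem_filter.1 hb).2
        rw [← h.cls _ _ hb, ← h.cls _ _ (isConj_inv_iff.2 hb), hφ]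
        exact congrArg (· • x c) (h.o1 c hc)
      have e2 : ∀ b ∈ S.filter (fun b => ¬ IsConj c b), φ (x c * x b⁻¹) • x b = 0 := by
        intro b hb
        obtain ⟨hb1, hb2⟩ := mem_filter.1 hb
        rw [hφ]
        have := h.o1' c hc _ (h.inv b hb1) fun e => hb2 (isConj_inv_iff.1 e).symm
        simp only [Pi.mul_apply]
        rw [this, zero_smul]
      rw [hPr, ← sum_filter_add_sum_filter_not S (IsConj c), sum_eq_zero e2, add_zero,
        sum_congr rfl e1, sum_const, h.card c hc, mul_smul, Nat.cast_smul_eq_nsmul,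
        Nat.cast_smul_eq_nsmul]
    | zero => simp
    | add y z _ _ h1 h2 => rw [map_add, h1, h2, smul_add]
    | smul c y _ h1 => rw [map_smul, h1, smul_comm]
  have hW : ∀ f ∈ W, ∃ γ : ℂ, ((e : ℂ) * q) • f - Pr f = γ • (((e : ℂ) * q) • w - Pr w) := by
    intro f hf
    obtain ⟨u, hu, v, hv, rfl⟩ := Submodule.mem_sup.1 hf
    obtain ⟨c, rfl⟩ := Submodule.mem_span_singleton.1 hv
    refine ⟨c, ?_⟩
    rw [map_add, map_smul, hPU u hu, smul_add, smul_sub, smul_comm c]
    abel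
  have hq : 0 < q := lt_of_le_of_lt (Nat.zero_le _) h.lt
  have heq : (e : ℂ) * q ≠ 0 := by
    have := h.two
    exact_mod_cast (Nat.mul_pos (by omega) hq).ne'
  obtain ⟨γ, h1⟩ := hW _ hone
  obtain ⟨γ', h2⟩ := hW _ hdel
  have h3 : Pr 1 = 0 := by
    rw [hPr]
    refine sum_eq_zero fun b hb => ?_
    rw [one_mul, hφ, h.o2 _ (h.inv b hb), zero_smul]
  have h4 : Pr (Pi.single i0 1) = ∑ b ∈ S, x b := by
    rw [hPr]
    refine sum_congr rfl fun b hb => ?_
    rw [hφ, sum_eq_single i0 (fun i _ hi => by simp [hi]) (by simp)]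
    simp [h.n0, hx0 _ (h.inv b hb)]
  rw [h3, sub_zero] at h1
  have hγ : γ ≠ 0 := by
    rintro rfl
    have := congrFun h1 i0
    simp only [Pi.smul_apply, Pi.one_apply, smul_eq_mul, mul_one, zero_mul] at this
    exact heq this
  have h5 : ((e : ℂ) * q) • (Pi.single i0 1 : I → ℂ) - ∑ b ∈ S, x b =
      (γ' / γ * (e * q)) • (1 : I → ℂ) := by
    rw [← h4, h2, mul_smul (γ' / γ), h1, smul_smul (γ' / γ), div_mul_cancel₀ _ hγ]
  have h6 := congrFun h5 i0
  have h7 := congrArg φ h5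
  rw [map_sub, map_smul, map_sum, map_smul, sum_eq_zero fun b hb => (hφ _).trans (h.o2 b hb), hφ,
    hφ, sum_eq_single i0 (fun i _ hi => by simp [hi]) (by simp)] at h7
  simp only [Pi.sub_apply, Pi.smul_apply, Pi.single_eq_same, smul_eq_mul, mul_one, Finset.sum_apply,
    Pi.one_apply, sum_congr rfl hx0, sum_const, nsmul_eq_mul, h.n0, Nat.cast_one, sub_zero] at h6 h7
  rw [← h6] at h7
  have h8 : (e : ℤ) * q = ((e : ℤ) * q - S.card) * ∑ i, (n i : ℤ) := by exact_mod_cast h7
  obtain ⟨j, hj⟩ : ∃ j, j ≠ i0 := by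
    by_contra hj
    push Not at hj
    have := h.o2 a ha
    rw [sum_eq_single i0 (fun i _ hi => (hi (hj i)).elim) (by simp), h.n0, hx0 a ha] at this
    simp at this
  have h9 : 2 ≤ ∑ i, n i := by
    have := sum_le_sum_of_subset (f := n) (subset_univ {j, i0})
    rw [sum_pair hj] at this
    have := h.npos j
    have := h.npos i0
    omega
  have h10 : (2 : ℤ) ≤ ∑ i, (n i : ℤ) := by exact_mod_cast h9
  have h11 : (S.card : ℤ) < q := by exact_mod_cast h.lt
  have h12 : (2 : ℤ) ≤ e := by exact_mod_cast h.two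
  have h13 : (0 : ℤ) < q := by exact_mod_cast hq
  nlinarith [mul_le_mul_of_nonneg_right h12 h13.le]

end H24.Gl
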