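import Cfsg.Agent.Lib.GlSz.G2
import Cfsg.Agent.Lib.GlSz.G3
import Cfsg.Agent.Lib.H85.AbFrob
import Cfsg.Agent.Lib.Block.Apps
import Cfsg.Agent.Lib.Char.Integral

/-! The principal block; the case of a non-real central element. -/

set_option autoImplicit false
set_option linter.unusedSectionVars false
set_option linter.style.haveILetI false

namespace H24.Gl

open Cfsg Subgroup Finset
open scoped Pointwise ComplexConjugate

variable {G : Type*} [Group G] [Fintype G] {p : ℕ} [hp : Fact p.Prime]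

theorem sum_conj (χ : IrrCharacter G) (a b : G) :
    ∑ g : G, (χ : G → ℂ) (a * (g * b * g⁻¹)) =
      Fintype.card G * ((χ : G → ℂ) a * (χ : G → ℂ) b / (χ : G → ℂ) 1) := by
  classical
  let f : G → ℂ := fun x => ∑ g : G, if g * b * g⁻¹ = x then 1 else 0
  have hf : IsClassFunction G f := fun x k => by
    refine (Fintype.sum_equiv (Equiv.mulLeft k) _ _ fun g => ?_).symm
    refine if_congr ⟨fun e => ?_, fun e => ?_⟩ rfl rfl
    · rw [← e, Equiv.coe_mulLeft]; group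
    · rw [Equiv.coe_mulLeft] at e
      calc _ = k⁻¹ * (k * g * b * (k * g)⁻¹) * k := by group
        _ = _ := by rw [e]; group
  have key : ∀ F : G → ℂ, ∑ x, f x * F x = ∑ g : G, F (g * b * g⁻¹) := fun F => by
    simp only [f, sum_mul]
    rw [sum_comm]
    exact sum_congr rfl fun g _ => by simp
  have h1 := H6.sum_mul_irr_mul χ.2 hf a
  rw [key, key, sum_congr rfl fun g _ => H84.irr_class χ b g] at h1
  rw [sum_congr rfl fun g _ => H6.classFun_mul_comm (H84.irr_class χ) a _, h1]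
  simp only [sum_const, card_univ, nsmul_eq_mul]
  ring

theorem eq_one_of_ker [IsSimpleGroup G] {χ : IrrCharacter G} {a : G} (ha : a ≠ 1)
    (h : (χ : G → ℂ) a = (χ : G → ℂ) 1) : χ = H33.oneIrr G := by
  have h1 : H6.charKer (χ : G → ℂ) = ⊤ :=
    (H6.charKer_normal _).eq_bot_or_eq_top.resolve_left fun e =>
      ha (mem_bot.1 (e ▸ (H6.mem_charKer (H84.irr_char χ)).2 h))
  refine Subtype.ext (H6.irr_eq_of_inner_ne_zero χ.2 (H33.oneIrr G).2 ?_)
  rw [H6.classInner_def, sum_congr rfl fun g _ => by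
    rw [(H6.mem_charKer (H84.irr_char χ)).1 (h1 ▸ mem_top g)]]
  simp [H6.irr_one_ne_zero χ.2]

theorem eq_one_of_deg [IsSimpleGroup G] (hn : ∃ x y : G, x * y ≠ y * x) {χ : IrrCharacter G}
    (h : (χ : G → ℂ) 1 = 1) : χ = H33.oneIrr G := by
  obtain ⟨x, y, hxy⟩ := hn
  obtain ⟨lam, e⟩ := H6.exists_hom_of_char_one_eq_one (H84.irr_char χ) h
  refine eq_one_of_ker (a := x * y * (y * x)⁻¹) (fun e => hxy (mul_inv_eq_one.1 e)) ?_
  rw [e]
  simp only [map_mul, map_inv, map_one, mul_comm (lam x), mul_inv_cancel]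

variable {P : Sylow p G} {M : Ideal AlgInt} [M.IsMaximal]

namespace Hyp

variable (h : Hyp P) (hM : IsPModular p M)
include h hM

theorem sec {χ : IrrCharacter G} (hχ : χ ∈ principalBlock M G) {g u : G}
    (hu : u ∈ (P : Subgroup G)) (h1 : u ≠ 1) (hc : IsConj (H35.pPart p g) u) :
    (χ : G → ℂ) g = (χ : G → ℂ) u := by
  obtain ⟨k, rfl⟩ := isConj_iff.1 hc
  rw [← H84.irr_class χ g k]
  exact H85.principal_section_npc hM (h.pn _ hu h1)
    (H35.isPPart_conj (H35.isPPart_pPart p g) k) hχ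

theorem col {a x : G} (ha : a ∈ AA p (P : Subgroup G)) (h1 : a ≠ 1) (hc : IsConj a x) :
    ∑ χ ∈ H84.bset (principalBlock M G), (χ : G → ℂ) a * conj ((χ : G → ℂ) x) = Nat.card P :=
  H85.sum_principal_npc hM P (H35.isPElt_of_mem P.isPGroup' (AA_le _ ha))
    (fun _ hx => mem_centralizer_singleton_iff.2 (AA_comm ha hx)) (h.pn a (AA_le _ ha) h1) hc

theorem prod {a b : G} (ha : a ∈ AA p (P : Subgroup G)) (ha1 : a ≠ 1)
    (hb : b ∈ AA p (P : Subgroup G)) (hb1 : b ≠ 1) (hab : ¬ IsConj b a⁻¹) :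
    ∃ τ : G → G, (∀ g, τ g ∈ AA p (P : Subgroup G) ∧ τ g ≠ 1) ∧
      ∀ χ ∈ principalBlock M G, Fintype.card G *
        ((χ : G → ℂ) a * (χ : G → ℂ) b / (χ : G → ℂ) 1) = ∑ g, (χ : G → ℂ) (τ g) := by
  choose c h1 h2 h3 _ using fun g : G =>
    h.tau ha ha1 hb hb1 (isConj_iff.2 ⟨g, rfl⟩ : IsConj b (g * b * g⁻¹))
  have h4 : ∀ g, a * c g ≠ 1 := fun g e => hab (by rw [← eq_inv_of_mul_eq_one_right e]; exact h2 g)
  refine ⟨fun g => a * c g, fun g => ⟨mul_mem ha (h1 g), h4 g⟩, fun χ hχ => ?_⟩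
  rw [← sum_conj]
  exact sum_congr rfl fun g _ => h.sec hM hχ (AA_le _ (mul_mem ha (h1 g))) (h4 g) (h3 g)

omit h in
theorem col_one {a : G} (ha : a ∈ (P : Subgroup G)) (h1 : a ≠ 1) :
    ∑ χ ∈ H84.bset (principalBlock M G), (χ : G → ℂ) a * (χ : G → ℂ) 1 = 0 := by
  have := H33.col_eq_zero_of_pElt hM H33.isPBlock_principalBlock
    (H35.isPElt_of_mem P.isPGroup' ha) H35.isPElt_one (by rwa [isConj_one_left])
  simpa only [H84.conj_irr_one] using this

omit hM in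
theorem nonreal [IsSimpleGroup G] (hnn : ¬ (P : Subgroup G).Normal) {a : G}
    (ha : a ∈ AA p (P : Subgroup G)) (ha1 : a ≠ 1) : IsConj a a⁻¹ := by
  classical
  by_contra hr
  obtain ⟨M, hM⟩ := H33.exists_isPModular p
  haveI := hM.2.1
  let S : Finset G := univ.filter fun b => b ∈ AA p (P : Subgroup G) ∧ b ≠ 1
  have hS : ∀ {b}, b ∈ S ↔ b ∈ AA p (P : Subgroup G) ∧ b ≠ 1 := by simp [S]
  let I := {χ // χ ∈ H84.bset (principalBlock M G)}
  let x : G → I → ℂ := fun b χ => (χ.1 : G → ℂ) b / (χ.1 : G → ℂ) 1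
  have h0 : ∀ χ : IrrCharacter G, (χ : G → ℂ) 1 ≠ 0 := fun χ => H6.irr_one_ne_zero χ.2
  have hsum : ∀ b c : G, ∑ χ : I, ((charDegree (χ.1 : G → ℂ) ^ 2 : ℕ) : ℂ) * (x b χ * x c χ) =
      ∑ χ ∈ H84.bset (principalBlock M G), (χ : G → ℂ) b * conj ((χ : G → ℂ) c⁻¹) := by
    intro b c
    rw [← sum_coe_sort (H84.bset (principalBlock M G))]
    refine sum_congr rfl fun χ _ => ?_
    have := h0 χ.1
    rw [H6.char_inv (H84.irr_char _), Complex.conj_conj, Nat.cast_pow, H84.cast_deg]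
    simp only [x]
    field_simp
  have hpe : ∀ {b}, b ∈ S → H35.IsPElt p b := fun hb =>
    H35.isPElt_of_mem P.isPGroup' (AA_le _ (hS.1 hb).1)
  refine HG.false (S := S) (x := x) (n := fun χ => charDegree (χ.1 : G → ℂ) ^ 2)
    (i0 := ⟨H33.oneIrr G, H84.mem_bset.2 H33.oneIrr_mem_principalBlock⟩) (q := Nat.card P)
    (e := (centralizer (ZZ (P : Subgroup G) : Set G)).relIndex
      (normalizer ((P : Subgroup G) : Set G)))
    ⟨fun b hb => hS.2 ⟨inv_mem (hS.1 hb).1, inv_ne_one.2 (hS.1 hb).2⟩, fun b c hc => ?_,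
      fun b hb => ?_, fun b hb => ?_, fun b hb c hc hbc => ?_, fun b hb => ?_,
      fun b hb c hc hbc => ?_, fun b hb χ => ?_, fun b hb χ => ?_, ?_, fun χ => ?_, ?_,
      h.two_le_e (not_npc_of_simple hnn)⟩ (hS.2 ⟨ha, ha1⟩) hr
  · funext χ
    simp only [x, H6.classFun_of_isConj (H84.irr_class χ.1) hc]
  · rw [← h.card_cl (hS.1 hb).1 (hS.1 hb).2, ← Set.ncard_coe_finset]
    congr 1
    ext c
    simp only [coe_filter, hS, Set.mem_ofPred_eq]
    exact ⟨fun e => ⟨e.1.1, e.2⟩, fun e => ⟨⟨e.1, fun e' => (hS.1 hb).2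
      (by rw [e'] at e; exact isConj_one_left.1 e.2)⟩, e.2⟩⟩
  · rw [hsum, inv_inv]
    exact h.col hM (hS.1 hb).1 (hS.1 hb).2 (IsConj.refl _)
  · rw [hsum]
    exact H33.col_eq_zero_of_pElt hM H33.isPBlock_principalBlock (hpe hb) (hpe hc).inv
      fun e => hbc (by rw [← isConj_inv_iff, inv_inv]; exact e.symm)
  · rw [← col_one hM (AA_le _ (hS.1 hb).1) (hS.1 hb).2,
      ← sum_coe_sort (H84.bset (principalBlock M G))]
    refine sum_congr rfl fun χ _ => ?_
    have := h0 χ.1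
    rw [Nat.cast_pow, H84.cast_deg]
    simp only [x]
    field_simp
  · obtain ⟨τ, h1, h2⟩ := h.prod hM (hS.1 hb).1 (hS.1 hb).2 (hS.1 hc).1 (hS.1 hc).2 hbc
    refine ⟨τ, fun g => hS.2 (h1 g), funext fun χ => ?_⟩
    have := h0 χ.1
    simp only [x, Pi.smul_apply, Pi.mul_apply, smul_eq_mul, Finset.sum_apply]
    rw [← sum_div, ← h2 _ (H84.mem_bset.1 χ.2)]
    field_simp
  · refine div_ne_zero (H33.irr_ne_zero_of_mem_principal hM (H84.mem_bset.1 χ.2) fun e => ?_)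
      (h0 _)
    exact P.not_dvd_index (e.trans (index_dvd_of_le fun y hy =>
      mem_centralizer_singleton_iff.2 (AA_comm (hS.1 hb).1 hy)))
  · refine ⟨fun e => Subtype.ext (eq_one_of_ker (hS.1 hb).2 ((div_eq_one_iff_eq (h0 _)).1 e)), ?_⟩
    rintro rfl
    simp [x]
  · have := H84.cast_deg (H33.oneIrr G)
    rw [H33.oneIrr_apply] at this
    have : charDegree (H33.oneIrr G : G → ℂ) = 1 := by exact_mod_cast this
    simp [this]
  · exact pow_pos (H84.deg_pos _) 2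
  · rw [← Set.ncard_coe_finset]
    exact Set.ncard_lt_ncard (s := S) (t := ((P : Subgroup G) : Set G))
      ⟨fun b hb => AA_le _ (hS.1 hb).1,
        fun e => (hS.1 (e (P : Subgroup G).one_mem)).2 rfl⟩ (Set.toFinite _)

end Hyp

end H24.Gl
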