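import Cfsg.Agent.Lib.GlSz.G4

/-! The case of an abelian Sylow subgroup. -/

set_option autoImplicit false
set_option linter.unusedSectionVars false
set_option linter.style.haveILetI false

namespace H24.Gl

open Cfsg Subgroup Finset
open scoped Pointwise ComplexConjugate IsMulCommutative

theorem ineq {I : Type*} [DecidableEq I] (B : Finset I) {i0 : I} (h0 : i0 ∈ B) (c n : I → ℝ)
    {q A D : ℝ} (hc0 : c i0 = 1) (hn0 : n i0 = 1) (hn : ∀ i, 0 < n i) (hD : 0 ≤ D) (hA : 0 < A)
    (h1 : ∑ i ∈ B, c i ^ 2 = q) (h2 : ∑ i ∈ B, c i * n i = 0)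
    (h3 : q ≤ 2 * ∑ i ∈ B, c i ^ 3 / n i)
    (h4 : ∀ i ∈ B, i ≠ i0 → A ≤ n i - c i ∧ c i ≤ D) : (A - D) * q < 2 * A := by
  obtain ⟨j, hj, hj'⟩ : ∃ j ∈ B, c j < 0 := by
    by_contra hc
    push Not at hc
    have := (sum_eq_zero_iff_of_nonneg fun i hi => mul_nonneg (hc i hi) (hn i).le).1 h2 i0 h0
    rw [hc0, hn0] at this
    norm_num at this
  have hj0 : j ≠ i0 := by rintro rfl; linarith
  have key : 0 < ∑ i ∈ B.erase i0, c i ^ 2 / n i * (D * (n i - c i) - A * c i) := by
    refine sum_pos' (fun i hi => ?_) ⟨j, mem_erase.2 ⟨hj0, hj⟩, ?_⟩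
    · obtain ⟨e1, e2⟩ := h4 i (mem_of_mem_erase hi) (ne_of_mem_erase hi)
      exact mul_nonneg (div_nonneg (sq_nonneg _) (hn i).le) (by nlinarith)
    · obtain ⟨e1, e2⟩ := h4 j hj hj0
      exact mul_pos (div_pos (by nlinarith) (hn j)) (by nlinarith)
  have e := add_sum_erase B (fun i => c i ^ 2 / n i * (D * (n i - c i) - A * c i)) h0
  have e2 : ∑ i ∈ B, c i ^ 2 / n i * (D * (n i - c i) - A * c i) =
      D * q - (D + A) * ∑ i ∈ B, c i ^ 3 / n i := by
    rw [← h1, mul_sum, mul_sum, ← sum_sub_distrib]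
    refine sum_congr rfl fun i _ => ?_
    have := (hn i).ne'
    field_simp
    ring
  simp only [hc0, hn0] at e
  nlinarith

variable {G : Type*} [Group G] [Fintype G] {p : ℕ} [hp : Fact p.Prime]
variable {P : Sylow p G} {M : Ideal AlgInt} [M.IsMaximal]

theorem int_val {A : Subgroup G} {a : G} (ha : a ∈ A) (ha1 : a ≠ 1)
    (hall : ∀ b ∈ A, b ≠ 1 → IsConj a b) (χ : IrrCharacter G) :
    ∃ c m : ℤ, (χ : G → ℂ) a = c ∧ (charDegree (χ : G → ℂ) : ℤ) - c = Nat.card A * m := by
  classical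
  obtain ⟨m, hm⟩ := H6.char_inner_nat (H6.isCharacter_restrict A (H84.irr_char χ))
    H6.isCharacter_one
  have h1 := H6.card_mul_classInner (fun x : A => (χ : G → ℂ) x) (fun _ => 1)
  rw [hm, ← add_sum_erase _ _ (mem_univ 1), sum_congr rfl (g := fun _ => (χ : G → ℂ) a)
    fun b hb => by
      rw [map_one, mul_one, ← H6.classFun_of_isConj (H84.irr_class χ)
        (hall b b.2 fun e => ne_of_mem_erase hb (Subtype.ext e))]] at h1
  simp only [map_one, mul_one, OneMemClass.coe_one, sum_const, card_erase_of_mem (mem_univ _),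
    card_univ, nsmul_eq_mul, ← Nat.card_eq_fintype_card, ← H84.cast_deg] at h1
  have h2 : 1 < Nat.card A := (one_lt_card_iff_ne_bot _).2 fun e => ha1 (by rw [e] at ha; exact ha)
  rw [Nat.cast_sub h2.le, Nat.cast_one] at h1
  have h3 : (Nat.card A : ℂ) - 1 ≠ 0 := sub_ne_zero.2 (by exact_mod_cast h2.ne')
  have h4 : (χ : G → ℂ) a = (((Nat.card A * m - charDegree (χ : G → ℂ)) / (Nat.card A - 1) : ℚ) : ℂ) := by
    push_cast
    rw [eq_div_iff h3, h1]
    ring
  obtain ⟨c, hc⟩ := H8.exists_int_of_isIntegral_rat (h4 ▸ H6.char_isIntegral (H84.irr_char χ) a)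
  rw [hc, Rat.cast_intCast] at h4
  refine ⟨c, m - c, h4, ?_⟩
  rw [h4] at h1
  have : (Nat.card A : ℤ) * m = charDegree (χ : G → ℂ) + (Nat.card A - 1) * c := by exact_mod_cast h1
  linear_combination -this

namespace Hyp

variable (h : Hyp P)
include h

theorem frobAut [IsMulCommutative P] : H85.FrobAut (P : Subgroup G) := fun y hy h1 =>
  le_antisymm (fun _ hn _ hx => (h.semi hn.2 hy h1 (mem_centralizer_singleton_iff.1 hn.1)
      ⟨hx, (P : Subgroup G).le_centralizer hx⟩).symm)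
    fun _ hn => ⟨mem_centralizer_singleton_iff.2 (hn y hy).symm, centralizer_le_normalizer _ hn⟩

omit h in
theorem card_autz [IsMulCommutative P] : Nat.card (H85.autz (P : Subgroup G)) =
    (centralizer (ZZ (P : Subgroup G) : Set G)).relIndex
      (normalizer ((P : Subgroup G) : Set G)) := by
  rw [H85.card_autz, ZZ, inf_eq_left.2 (P : Subgroup G).le_centralizer]

omit h in
theorem not_comm [IsSimpleGroup G] (hnn : ¬ (P : Subgroup G).Normal) :
    ∃ x y : G, x * y ≠ y * x := by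
  by_contra hc
  push Not at hc
  exact hnn ⟨fun n hn g => by rwa [hc g n, mul_inv_cancel_right]⟩

theorem one_class [IsSimpleGroup G] [IsMulCommutative P] (hnn : ¬ (P : Subgroup G).Normal)
    {a b : G} (ha : a ∈ AA p (P : Subgroup G)) (ha1 : a ≠ 1) (hb : b ∈ AA p (P : Subgroup G))
    (hb1 : b ≠ 1) : IsConj b a⁻¹ := by
  classical
  by_contra hab
  obtain ⟨M, hM⟩ := H33.exists_isPModular p
  haveI := hM.2.1
  letI := Fintype.ofFinite (H85.autz (P : Subgroup G))
  have hr : Nat.card (H85.autz (P : Subgroup G)) + 1 < Nat.card P := by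
    rw [card_autz, ← h.card_cl hb hb1]
    have h1 : a⁻¹ ∉ {c | c ∈ AA p (P : Subgroup G) ∧ IsConj b c} := fun e => hab e.2
    rw [← Set.ncard_insert_of_notMem h1]
    refine Set.ncard_lt_ncard (t := ((P : Subgroup G) : Set G)) ⟨?_, fun e => ?_⟩ (Set.toFinite _)
    · rintro c (rfl | hc)
      · exact (P : Subgroup G).inv_mem (AA_le _ ha)
      · exact AA_le _ hc.1
    · rcases e (P : Subgroup G).one_mem with e | e
      · exact ha1 (inv_eq_one.1 e.symm)
      · exact hb1 (isConj_one_left.1 e.2)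
  obtain ⟨δ, c, ζ, α, Y, hE, -, hY, h1, hα1, hα⟩ := H85.abFrob hM P h.frobAut hr
  obtain ⟨τ, hτ, hτ'⟩ := h.prod hM ha ha1 hb hb1 hab
  have h2 : ∀ χ, χ ∉ Y → χ ≠ H33.oneIrr G → α χ = 0 := by
    intro χ hχ hχ1
    by_contra h0
    have hB := (hα χ hχ).1 h0
    have hv : ∀ u ∈ AA p (P : Subgroup G), u ≠ 1 → (χ : G → ℂ) u = α χ := fun u hu hu1 => by
      rw [← hE.const χ hχ ⟨u, AA_le _ hu⟩ (fun e => hu1 (congrArg Subtype.val e)),
        H85.valOn_of_mem _ hB]
    have h3 := hτ' χ hB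
    rw [sum_congr rfl fun g _ => hv _ (hτ g).1 (hτ g).2, sum_const, card_univ, nsmul_eq_mul,
      hv b hb hb1] at h3
    have h4 : (Fintype.card G : ℂ) ≠ 0 := by exact_mod_cast Fintype.card_ne_zero
    have h5 : (α χ : ℂ) ≠ 0 := by exact_mod_cast h0
    have h6 := H6.irr_one_ne_zero χ.2
    refine hχ1 (eq_one_of_ker ha1 ?_)
    field_simp at h3
    exact h3
  obtain ⟨ψ, hψ⟩ : Y.Nonempty := card_pos.1 (lt_of_lt_of_le two_pos hE.two_le)
  have h3 := (hE.rel (fun χ => (χ : G → ℂ) 1) fun u hu => by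
    rw [H85.sum_mul_conj_valOn]
    have := H33.col_eq_zero_of_pElt hM H33.isPBlock_principalBlock H35.isPElt_one
      (H35.isPElt_of_mem P.isPGroup' u.2)
      (by rw [isConj_one_right]; exact fun h => hu (Subtype.ext h))
    exact this).2 ψ hψ
  rw [sum_eq_single (H33.oneIrr G) (fun χ hχ hχ1 => by
    rw [h2 χ (mem_compl.1 hχ) hχ1, Int.cast_zero, zero_mul])
    (fun e => absurd (mem_compl.2 h1) e), hα1, ← H84.cast_deg ψ] at h3
  simp only [Int.cast_one, H33.oneIrr_apply, mul_one] at h3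
  have h4 : ((Y.card : ℤ) * c - δ) * charDegree (ψ : G → ℂ) + 1 = 0 := by exact_mod_cast h3
  have h5 : (charDegree (ψ : G → ℂ) : ℤ) ∣ 1 := ⟨-((Y.card : ℤ) * c - δ), by linear_combination h4⟩
  have h6 : charDegree (ψ : G → ℂ) = 1 := Nat.dvd_one.1 (by exact_mod_cast h5)
  exact h1 (eq_one_of_deg (not_comm hnn) (χ := ψ) (by rw [← H84.cast_deg, h6, Nat.cast_one]) ▸ hψ)

theorem sq_le [IsMulCommutative P] {a : G}
    (hall : ∀ b ∈ AA p (P : Subgroup G), b ≠ 1 → IsConj a b)
    (hne : AA p (P : Subgroup G) ≠ P) : Nat.card (AA p (P : Subgroup G)) ^ 2 ≤ Nat.card P := by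
  let π : (P : Subgroup G) →* (P : Subgroup G) := powMonoidHom p
  have hk : π.ker = (AA p (P : Subgroup G)).subgroupOf P := by
    ext x
    rw [MonoidHom.mem_ker, mem_subgroupOf, Subtype.ext_iff]
    exact ⟨fun e => ⟨⟨x.2, (P : Subgroup G).le_centralizer x.2⟩, e⟩, fun e => e.2⟩
  obtain ⟨u, hu, hu'⟩ := SetLike.exists_of_lt (lt_of_le_of_ne (AA_le _) hne)
  have hu1 : u ^ p ≠ 1 := fun e => hu' ⟨⟨hu, (P : Subgroup G).le_centralizer hu⟩, e⟩
  obtain ⟨k, h1, h2⟩ := exists_pow_ord (H35.isPElt_of_mem P.isPGroup' (pow_mem hu p)) hu1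
  have hz : (u ^ p) ^ k ∈ (P : Subgroup G) := pow_mem (pow_mem hu p) k
  have hle : (AA p (P : Subgroup G)).subgroupOf P ≤ π.range := by
    intro b hb
    by_cases hb1 : b = 1
    · rw [hb1]; exact one_mem _
    obtain ⟨n, hn, e⟩ := h.fus _ hz b b.2
      ((hall _ ⟨⟨hz, (P : Subgroup G).le_centralizer hz⟩, h2⟩ h1).symm.trans
        (hall b hb fun e => hb1 (Subtype.ext e)))
    refine ⟨⟨n * u ^ k * n⁻¹, conj_mem_P hn (pow_mem hu k)⟩, Subtype.ext ?_⟩
    change (n * u ^ k * n⁻¹) ^ p = b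
    rw [conj_pow, ← e, ← pow_mul, ← pow_mul, mul_comm k p]
  have e1 := Nat.card_congr (subgroupOfEquivOfLe (AA_le (p := p) (P : Subgroup G))).toEquiv
  have e2 := π.ker.card_mul_index
  rw [index_ker, hk, e1] at e2
  have e3 := card_le_of_le hle
  rw [e1] at e3
  change _ ≤ Nat.card (P : Subgroup G)
  rw [← e2, sq]
  exact Nat.mul_le_mul_left _ e3

theorem cube (hM : IsPModular p M) (h2 : p ≠ 2) {a : G} (ha : a ∈ AA p (P : Subgroup G))
    (ha1 : a ≠ 1) (hall : ∀ b ∈ AA p (P : Subgroup G), b ≠ 1 → IsConj a b) :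
    ∃ s : ℕ, Fintype.card G ≤ 2 * s ∧ Fintype.card G * ∑ χ ∈ H84.bset (principalBlock M G),
      (χ : G → ℂ) a * (χ : G → ℂ) a / (χ : G → ℂ) 1 * conj ((χ : G → ℂ) a) = s * Nat.card P := by
  classical
  let T : Finset G := univ.filter fun g => p ∣ orderOf (a * (g * a * g⁻¹))
  refine ⟨T.card, ?_, ?_⟩
  · obtain ⟨n, hn⟩ := isConj_iff.1 (hall _ (inv_mem ha) (inv_ne_one.2 ha1))
    have h1 : Tᶜ.card ≤ T.card := by
      refine card_le_card_of_injOn (· * n) (fun g hg => ?_) fun g _ g' _ e => mul_right_cancel e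
      obtain ⟨c, hc, -, h3, h4⟩ := h.tau ha ha1 ha ha1 (isConj_iff.2 ⟨g, rfl⟩ : IsConj a (g * a * g⁻¹))
      simp only [T, coe_compl, coe_filter, mem_univ, true_and, Set.mem_compl_iff,
        Set.mem_ofPred_eq] at hg ⊢
      rw [H35.pPart_eq_one hg, isConj_one_right] at h3
      rw [show g * n * a * (g * n)⁻¹ = (g * a * g⁻¹)⁻¹ by
        rw [show g * n * a * (g * n)⁻¹ = g * (n * a * n⁻¹) * g⁻¹ by group, hn]; group,
        ← H35.pPart_ne_one_iff p]
      intro e
      rw [e, isConj_one_right, eq_inv_of_mul_eq_one_right h3, inv_inv, ← sq] at h4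
      have := orderOf_dvd_of_pow_eq_one h4
      rw [AA_ord ha ha1] at this
      exact h2 ((Nat.prime_dvd_prime_iff_eq hp.out Nat.prime_two).1 this)
    have := card_add_card_compl T
    omega
  · rw [mul_sum, sum_congr rfl fun χ _ => by rw [← mul_assoc, ← sum_conj, sum_mul], sum_comm,
      ← sum_add_sum_compl T, sum_eq_zero (s := Tᶜ) fun g hg => ?_, add_zero,
      sum_congr rfl (g := fun _ => (Nat.card P : ℂ)) fun g hg => ?_, sum_const, nsmul_eq_mul]
    · obtain ⟨c, hc, -, h3, -⟩ := h.tau ha ha1 ha ha1 (isConj_iff.2 ⟨g, rfl⟩ : IsConj a (g * a * g⁻¹))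
      have h4 : a * c ≠ 1 := fun e => (H35.pPart_ne_one_iff p).2 (mem_filter.1 hg).2
        (by rw [e] at h3; exact isConj_one_left.1 h3)
      rw [← h.col hM ha ha1 (IsConj.refl _)]
      refine sum_congr rfl fun χ hχ => ?_
      rw [h.sec hM (H84.mem_bset.1 hχ) (AA_le _ ha) ha1 (h3.trans (hall _ (mul_mem ha hc) h4).symm)]
    · refine H33.col_eq_zero hM H33.isPBlock_principalBlock ?_
      rw [H35.pPart_eq_one (by simpa [T] using hg), isConj_one_right,
        H35.pPart_eq_self (H35.isPElt_of_mem P.isPGroup' (AA_le _ ha))]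
      exact ha1

theorem bound [IsSimpleGroup G] (h2 : p ≠ 2) {a : G} (ha : a ∈ AA p (P : Subgroup G))
    (ha1 : a ≠ 1) (hall : ∀ b ∈ AA p (P : Subgroup G), b ≠ 1 → IsConj a b) (hM : IsPModular p M)
    {D : ℤ} (hD : 0 ≤ D) (hb : ∀ χ ∈ principalBlock M G, χ ≠ H33.oneIrr G → ∀ c : ℤ,
      (χ : G → ℂ) a = c → c ^ 2 + 1 ≤ Nat.card P → c ≤ D) :
    ((Nat.card (AA p (P : Subgroup G)) : ℤ) - D) * Nat.card P <
      2 * Nat.card (AA p (P : Subgroup G)) := by
  classical
  choose c m hc hm using int_val ha ha1 hall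
  have h0 := H84.mem_bset.2 (H33.oneIrr_mem_principalBlock (M := M) (G := G))
  have hc0 : c (H33.oneIrr G) = 1 := by
    have := hc (H33.oneIrr G)
    rw [H33.oneIrr_apply] at this
    exact_mod_cast this.symm
  have h1 : ∑ χ ∈ H84.bset (principalBlock M G), c χ ^ 2 = Nat.card P := by
    have := h.col hM ha ha1 (IsConj.refl _)
    simp only [hc, map_intCast, ← sq] at this
    exact_mod_cast this
  have hA : 0 < Nat.card (AA p (P : Subgroup G)) := Nat.card_pos
  have := ineq _ h0 (fun χ => (c χ : ℝ)) (fun χ => (charDegree (χ : G → ℂ) : ℝ))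
    (q := Nat.card P) (A := Nat.card (AA p (P : Subgroup G))) (D := D) (by simp [hc0]) ?_
    (fun χ => by exact_mod_cast H84.deg_pos χ) (by exact_mod_cast hD) (by exact_mod_cast hA)
    (by exact_mod_cast h1) ?_ ?_ fun χ hχ hχ1 => ⟨?_, ?_⟩
  · exact_mod_cast this
  · have := H84.cast_deg (H33.oneIrr G)
    rw [H33.oneIrr_apply] at this
    exact_mod_cast this
  · have := col_one hM (AA_le _ ha) ha1
    simp only [hc, ← H84.cast_deg] at this
    exact_mod_cast this
  · obtain ⟨s, e1, e2⟩ := h.cube hM h2 ha ha1 hall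
    simp only [hc, ← H84.cast_deg, map_intCast] at e2
    have e3 : (Fintype.card G : ℝ) * ∑ χ ∈ H84.bset (principalBlock M G),
        (c χ : ℝ) ^ 3 / (charDegree (χ : G → ℂ) : ℝ) = s * Nat.card P := by
      rw [sum_congr rfl (g := fun χ => (c χ : ℝ) * c χ / (charDegree (χ : G → ℂ) : ℝ) * c χ)
        fun χ _ => by ring]
      exact_mod_cast e2
    have e4 : (Fintype.card G : ℝ) ≤ 2 * s := by exact_mod_cast e1
    have e5 : (0 : ℝ) < Fintype.card G := by exact_mod_cast Fintype.card_pos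
    have e6 : (0 : ℝ) ≤ Nat.card P := Nat.cast_nonneg _
    refine le_of_mul_le_mul_left ?_ e5
    nlinarith
  · have e1 := H6.char_norm_le (H84.irr_char χ) a
    rw [hc, ← H84.cast_deg, Complex.norm_intCast, Complex.norm_natCast] at e1
    have e2 : c χ ≤ charDegree (χ : G → ℂ) := by exact_mod_cast (le_abs_self _).trans e1
    have e3 : c χ ≠ charDegree (χ : G → ℂ) := fun e =>
      hχ1 (eq_one_of_ker ha1 (by rw [hc, e, ← H84.cast_deg, Int.cast_natCast]))
    have e4 := hm χ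
    have e5 : 0 < m χ := by
      by_contra e
      have : (Nat.card (AA p (P : Subgroup G)) : ℤ) * m χ ≤ 0 :=
        mul_nonpos_of_nonneg_of_nonpos (Nat.cast_nonneg _) (by omega)
      omega
    have : (Nat.card (AA p (P : Subgroup G)) : ℤ) ≤ charDegree (χ : G → ℂ) - c χ := by
      rw [e4]; exact le_mul_of_one_le_right (Nat.cast_nonneg _) e5
    exact_mod_cast this
  · have e1 := sum_le_sum_of_subset_of_nonneg (f := fun χ => c χ ^ 2)
      (s := {χ, H33.oneIrr G}) (insert_subset hχ (singleton_subset_iff.2 h0))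
      fun _ _ _ => sq_nonneg _
    rw [sum_pair hχ1, h1, hc0] at e1
    exact_mod_cast hb χ (H84.mem_bset.1 hχ) hχ1 _ (hc χ) e1

/-- There is no simple group with `p` odd. -/
theorem odd_false [IsSimpleGroup G] (hnn : ¬ (P : Subgroup G).Normal) : p = 2 := by
  classical
  by_contra h2
  have hP : (P : Subgroup G) ≠ ⊥ := fun e => hnn (e ▸ inferInstance)
  obtain ⟨a, ha, ha1⟩ := exists_AA P.isPGroup' hP
  haveI : IsMulCommutative (P : Subgroup G) := ⟨⟨fun x y => Subtype.ext
    (h.comm_of_real h2 ha ha1 (h.nonreal hnn ha ha1) x x.2 y y.2)⟩⟩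
  have hall : ∀ b ∈ AA p (P : Subgroup G), b ≠ 1 → IsConj a b := fun b hb hb1 => by
    simpa using h.one_class hnn (inv_mem hb) (inv_ne_one.2 hb1) ha ha1
  obtain ⟨M, hM⟩ := H33.exists_isPModular p
  haveI := hM.2.1
  have he := h.card_cl ha ha1
  have he2 := h.two_le_e (not_npc_of_simple hnn)
  have he3 : Nat.card (AA p (P : Subgroup G)) = (centralizer (ZZ (P : Subgroup G) : Set G)).relIndex
      (normalizer ((P : Subgroup G) : Set G)) + 1 := by
    rw [← he, ← Set.ncard_insert_of_notMem (a := (1 : G)) fun e => ha1 (isConj_one_left.1 e.2)]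
    change Set.ncard (AA p (P : Subgroup G) : Set G) = _
    congr 1
    ext b
    refine ⟨fun hb => ?_, ?_⟩
    · by_cases hb1 : b = 1
      · exact Or.inl hb1
      · exact Or.inr ⟨hb, hall b hb hb1⟩
    · rintro (rfl | hb)
      · exact (AA p (P : Subgroup G)).one_mem
      · exact hb.1
  by_cases hA : AA p (P : Subgroup G) = P
  · have hc : Nat.card P = Nat.card (AA p (P : Subgroup G)) := by rw [hA]
    have := h.bound h2 ha ha1 hall hM (D := Nat.card (AA p (P : Subgroup G)) - 2) (by omega)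
      fun χ _ _ c _ hc' => by
        by_contra e
        have : (Nat.card (AA p (P : Subgroup G)) : ℤ) - 1 ≤ c := by omega
        have h3 : (3 : ℤ) ≤ Nat.card (AA p (P : Subgroup G)) := by omega
        rw [hc] at hc'
        nlinarith
    rw [hc] at this
    linarith
  · have hsq := h.sq_le hall hA
    letI := Fintype.ofFinite (H85.autz (P : Subgroup G))
    rw [← card_autz] at he2 he3
    have hr : Nat.card (H85.autz (P : Subgroup G)) + 1 < Nat.card P := by
      rw [he3] at hsq; nlinarith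
    obtain ⟨δ, c, ζ, α, Y, hE, -, hY, h1, hα1, hα⟩ := H85.abFrob hM P h.frobAut hr
    have hn := hE.norm
    have hcd := hE.card
    rw [← Nat.card_eq_fintype_card] at hcd
    change _ = Nat.card P - 1 at hcd
    obtain ⟨e, hee⟩ : ∃ e, Nat.card (H85.autz (P : Subgroup G)) = e := ⟨_, rfl⟩
    rw [hee] at he2 he3 hr hn hcd
    have hY2 : e + 2 ≤ Y.card := by
      by_contra hc
      have : Y.card * e ≤ (e + 1) * e := Nat.mul_le_mul_right _ (by omega)
      rw [he3] at hsq
      have : Y.card * e + 1 = Nat.card P := by omega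
      nlinarith
    have hs : ∀ χ, χ ∉ Y → χ ≠ H33.oneIrr G → α χ ^ 2 + 1 ≤ ∑ i ∈ Yᶜ, α i ^ 2 := fun χ hχ hχ1 => by
      have e1 := sum_le_sum_of_subset_of_nonneg (f := fun χ => α χ ^ 2)
        (show {χ, H33.oneIrr G} ⊆ Yᶜ from insert_subset (mem_compl.2 hχ)
          (singleton_subset_iff.2 (mem_compl.2 h1))) fun _ _ _ => sq_nonneg _
      rwa [sum_pair hχ1, hα1] at e1
    have hs1 : 1 ≤ ∑ i ∈ Yᶜ, α i ^ 2 := by
      have := single_le_sum (f := fun χ => α χ ^ 2) (fun _ _ => sq_nonneg _) (mem_compl.2 h1)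
      simpa [hα1] using this
    have hY3 : (e : ℤ) + 2 ≤ Y.card := by exact_mod_cast hY2
    have hc0 : c = 0 := by
      by_contra hc
      have : 1 ≤ c ^ 2 := by nlinarith [sq_pos_of_ne_zero hc]
      nlinarith [sq_nonneg (c - δ)]
    have := h.bound h2 ha ha1 hall hM (D := e) (by omega) fun χ hχ hχ1 d hd _ => by
      have ha' : (⟨a, AA_le _ ha⟩ : (P : Subgroup G)) ≠ 1 := fun e => ha1 (congrArg Subtype.val e)
      by_cases hχY : χ ∈ Y
      · obtain ⟨ψ, hψ, rfl⟩ := (hE.mem χ).1 hχY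
        have e1 := hE.val ψ hψ _ ha'
        rw [H85.valOn_of_mem _ hχ, hd, hc0] at e1
        have e2 := congrArg norm e1
        have e3 : ‖(δ : ℂ)‖ = 1 := by rcases hE.sign with rfl | rfl <;> simp
        rw [Int.cast_zero, zero_add, norm_mul, e3, one_mul, Complex.norm_intCast] at e2
        have e4 := e2.le.trans (norm_sum_le _ _)
        rw [sum_congr rfl (g := fun _ => 1) fun x _ => Complex.norm_eq_one_of_pow_eq_one
          (n := Nat.card (P : Subgroup G)) (by
            rw [← Units.val_pow_eq_pow_val, ← map_pow, pow_card_eq_one', map_one, Units.val_one])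
          Nat.card_pos.ne', sum_const, card_univ, ← Nat.card_eq_fintype_card, hee] at e4
        have e5 : (d : ℝ) ≤ e := by simpa using (le_abs_self _).trans e4
        exact_mod_cast e5
      · have e1 := hE.const χ hχY _ ha'
        rw [H85.valOn_of_mem _ hχ, hd] at e1
        have e2 : d = α χ := by exact_mod_cast e1
        have e3 := hs χ hχY hχ1
        rw [hc0] at hn
        nlinarith [sq_nonneg δ, sq_nonneg (α χ - 1)]
    rw [he3] at this hsq
    have h3 : ((e + 1) ^ 2 : ℤ) ≤ Nat.card P := by exact_mod_cast hsq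
    have h4 : (2 : ℤ) ≤ e := by exact_mod_cast he2
    push_cast at this
    nlinarith

end Hyp

end H24.Gl
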